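import Cfsg.Agent.H118.L34.St
import Cfsg.Agent.H902.L34.HK

/-!
# S5917 (`L₃(4)`), module side: the dimension of the Steinberg module (helper906, row S1)
-/

set_option autoImplicit false
set_option linter.unusedSectionVars false
set_option linter.unusedSimpArgs false

namespace Cfsg.Agent.H906.L34

open Matrix Cfsg.Agent.H691.L34
open Cfsg.Agent.H902.L34 (up lo n1 n2 h1 h2 ext3 mk_mul up_mul lo_mul up_zero n1_sq n2_sq n1_up n2_up up_n1 up_n2 lo_eq
  lo_eq' n1_h1 n2_h2 up_inv lo_inv braid braid_left top_of rmul two_smul_zero T1 T2)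

section Elts

variable {F : Type} [Field F] [CharP F 2]

/-- the longest element -/
def w0 : G3 F := n1 * n2 * n1

theorem w0_val : (w0 : G3 F).1 = !![0, 0, 1; 0, 1, 0; 1, 0, 0] := by
  ext i j
  fin_cases i <;> fin_cases j <;> simp [w0, n1, n2, mk_mul]

theorem w0_sq : (w0 : G3 F) * w0 = 1 := by
  apply ext3
  intro i j
  fin_cases i <;> fin_cases j <;> simp [w0, n1, n2, mk_mul]

/-- conjugating the second panel -/
theorem w0_p2 (a : F) : w0 * (up 0 a 0 * n2) = n1 * up a 0 0 * w0 := by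
  apply ext3
  intro i j
  fin_cases i <;> fin_cases j <;> simp [w0, n1, n2, up, mk_mul]

theorem w0_p1 (a : F) : w0 * (up a 0 0 * n1) = n2 * up 0 a 0 * w0 := by
  apply ext3
  intro i j
  fin_cases i <;> fin_cases j <;> simp [w0, n1, n2, up, mk_mul]

theorem w0_lo (a b c : F) : lo a b c = w0 * up b a c * w0 := by
  apply ext3
  intro i j
  fin_cases i <;> fin_cases j <;> simp [w0, n1, n2, up, lo, mk_mul]

theorem h1_w0 (d : Fˣ) : h1 d * w0 = w0 * h2 d⁻¹ := by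
  apply ext3
  intro i j
  fin_cases i <;> fin_cases j <;> simp [w0, n1, n2, h1, h2, mk_mul]

theorem h2_w0 (d : Fˣ) : h2 d * w0 = w0 * h1 d⁻¹ := by
  apply ext3
  intro i j
  fin_cases i <;> fin_cases j <;> simp [w0, n1, n2, h1, h2, mk_mul]

theorem n1_up_unit (a : Fˣ) : n1 * up (a : F) 0 0 = up (a : F)⁻¹ 0 0 * n1 * h1 a * up (a : F)⁻¹ 0 0 * n1 := by
  rw [← lo_eq, ← mul_right_inj n1, ← mul_assoc, n1_sq, one_mul, ← mul_assoc, ← up_n1, mul_assoc, n1_sq, mul_one]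

theorem n2_up_unit (a : Fˣ) : n2 * up 0 (a : F) 0 = up 0 (a : F)⁻¹ 0 * n2 * h2 a * up 0 (a : F)⁻¹ 0 * n2 := by
  rw [← lo_eq', ← mul_right_inj n2, ← mul_assoc, n2_sq, one_mul, ← mul_assoc, ← up_n2, mul_assoc, n2_sq, mul_one]

theorem up_mem (a b c : F) : up a b c ∈ UU F := by
  refine ⟨fun i => ?_, rfl, rfl, rfl⟩
  fin_cases i <;> rfl

theorem eq_up {g : G3 F} (hg : g ∈ UU F) : g = up (g.1 0 1) (g.1 1 2) (g.1 0 2) := by
  obtain ⟨h, h10, h20, h21⟩ := hg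
  have e0 := h 0
  have e1 := h 1
  have e2 := h 2
  apply ext3
  intro i j
  fin_cases i <;> fin_cases j
  · exact e0
  · rfl
  · rfl
  · exact h10
  · exact e1
  · rfl
  · exact h20
  · exact h21
  · exact e2

theorem up_bij : Function.Bijective (fun p : F × F × F => (⟨up p.1 p.2.2 (p.1 * p.2.2 + p.2.1), up_mem _ _ _⟩ : UU F)) := by
  constructor
  · rintro ⟨a, b, c⟩ ⟨a', b', c'⟩ h
    have h1 : (up a c (a * c + b)).1 = (up a' c' (a' * c' + b')).1 := congrArg Subtype.val (congrArg Subtype.val h)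
    have h01 : a = a' := congrFun (congrFun h1 0) 1
    have h12 : c = c' := congrFun (congrFun h1 1) 2
    have h02 : a * c + b = a' * c' + b' := congrFun (congrFun h1 0) 2
    subst h01 h12
    rw [add_left_cancel h02]
  · rintro ⟨g, hg⟩
    refine ⟨(g.1 0 1, g.1 0 2 - g.1 0 1 * g.1 1 2, g.1 1 2), Subtype.ext ?_⟩
    have h := eq_up hg
    show up (g.1 0 1) (g.1 1 2) (g.1 0 1 * g.1 1 2 + (g.1 0 2 - g.1 0 1 * g.1 1 2)) = g
    rw [add_sub_cancel]
    exact h.symm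

end Elts

section Rep

variable {F : Type} [Field F] [CharP F 2] [Fintype F] {V : Type} [AddCommGroup V] [Module (ZMod 2) V]
  {ρ : Representation (ZMod 2) (G3 F) V}

theorem T1_apply (y : V) : T1 ρ y = ∑ a : F, ρ (up a 0 0 * n1) y := by
  rw [T1, LinearMap.sum_apply]

theorem T2_apply (y : V) : T2 ρ y = ∑ a : F, ρ (up 0 a 0 * n2) y := by
  rw [T2, LinearMap.sum_apply]

/-- `U⁺` applied to `w₀ w` -/
theorem Up_w0 {w : V} (t1 : T1 ρ w = w) (t2 : T2 ρ w = w) : Up ρ (ρ w0 w) = w := by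
  let _ := Fintype.ofFinite (UU F)
  have e1 : T1 ρ (T2 ρ (T1 ρ w)) = ∑ a : F, ∑ b : F, ∑ c : F, ρ (up a c (a * c + b)) (ρ (n1 * n2 * n1) w) := by
    simp_rw [T1_apply, T2_apply, map_sum, ← rmul]
    refine Finset.sum_congr rfl fun a _ => Finset.sum_congr rfl fun b _ => Finset.sum_congr rfl fun c _ => ?_
    rw [← braid_left]
    congr 2
    group
  rw [t1, t2, t1] at e1
  unfold Up
  rw [finsum_eq_sum_of_fintype, ← (Equiv.ofBijective _ up_bij).sum_comp, Fintype.sum_prod_type]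
  simp_rw [Fintype.sum_prod_type]
  exact e1.symm

/-- the structure of `y = w₀ w` -/
structure Opp (ρ : Representation (ZMod 2) (G3 F) V) (y : V) : Prop where
  t1 : ∀ d : Fˣ, ρ (h1 d) y = y
  t2 : ∀ d : Fˣ, ρ (h2 d) y = y
  s1 : ρ n1 y = ∑ a : F, ρ (up a 0 0) y
  s2 : ρ n2 y = ∑ a : F, ρ (up 0 a 0) y

theorem opp_w0 {w : V} (hB : ∀ g : G3 F, g.1 1 0 = 0 → g.1 2 0 = 0 → g.1 2 1 = 0 → ρ g w = w)
    (t1 : T1 ρ w = w) (t2 : T2 ρ w = w) : Opp ρ (ρ w0 w) where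
  t1 d := by
    rw [← rmul, h1_w0, rmul, hB (h2 d⁻¹) rfl rfl rfl]
  t2 d := by
    rw [← rmul, h2_w0, rmul, hB (h1 d⁻¹) rfl rfl rfl]
  s1 := by
    have h : ρ w0 w = ∑ a : F, ρ (n1 * up a 0 0) (ρ w0 w) := by
      conv_lhs => rw [← t2, T2_apply, map_sum]
      exact Finset.sum_congr rfl fun a _ => by rw [← rmul, w0_p2, rmul]
    conv_lhs => rw [h, map_sum]
    exact Finset.sum_congr rfl fun a _ => by rw [← rmul, ← mul_assoc, n1_sq, one_mul]
  s2 := by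
    have h : ρ w0 w = ∑ a : F, ρ (n2 * up 0 a 0) (ρ w0 w) := by
      conv_lhs => rw [← t1, T1_apply, map_sum]
      exact Finset.sum_congr rfl fun a _ => by rw [← rmul, w0_p1, rmul]
    conv_lhs => rw [h, map_sum]
    exact Finset.sum_congr rfl fun a _ => by rw [← rmul, ← mul_assoc, n2_sq, one_mul]

theorem Opp.u1 {y : V} (h : Opp ρ y) (a : Fˣ) : ρ (n1 * up (a : F) 0 0) y = ρ (up (a : F)⁻¹ 0 0) y := by
  have e : ρ (up (a : F)⁻¹ 0 0) (ρ n1 y) = ρ n1 y := by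
    conv_lhs => rw [h.s1, map_sum]
    rw [h.s1]
    refine Fintype.sum_equiv (Equiv.addLeft (a : F)⁻¹) _ _ fun b => ?_
    rw [← rmul, up_mul, Equiv.coe_addLeft]
    congr 3
    all_goals ring
  rw [n1_up_unit, rmul, rmul _ _ (up (a : F)⁻¹ 0 0), e, ← rmul, mul_assoc (_ * n1), mul_assoc _ n1, ← mul_assoc n1,
    n1_h1, mul_assoc (h1 _), n1_sq, mul_one, rmul, h.t1]

theorem Opp.u2 {y : V} (h : Opp ρ y) (a : Fˣ) : ρ (n2 * up 0 (a : F) 0) y = ρ (up 0 (a : F)⁻¹ 0) y := by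
  have e : ρ (up 0 (a : F)⁻¹ 0) (ρ n2 y) = ρ n2 y := by
    conv_lhs => rw [h.s2, map_sum]
    rw [h.s2]
    refine Fintype.sum_equiv (Equiv.addLeft (a : F)⁻¹) _ _ fun b => ?_
    rw [← rmul, up_mul, Equiv.coe_addLeft]
    congr 3
    all_goals ring
  rw [n2_up_unit, rmul, rmul _ _ (up 0 (a : F)⁻¹ 0), e, ← rmul, mul_assoc (_ * n2), mul_assoc _ n2, ← mul_assoc n2,
    n2_h2, mul_assoc (h2 _), n2_sq, mul_one, rmul, h.t2]

variable (ρ) in
/-- the span of the `U`-orbit -/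
def Y (y : V) : Submodule (ZMod 2) V := Submodule.span (ZMod 2) {v | ∃ a b c, v = ρ (up a b c) y}

theorem up_Y (y : V) (a b c : F) : ρ (up a b c) y ∈ Y ρ y := Submodule.subset_span ⟨a, b, c, rfl⟩

theorem stab_Y {y : V} (g : G3 F) (hg : ∀ a b c, ρ g (ρ (up a b c) y) ∈ Y ρ y) : ∀ v ∈ Y ρ y, ρ g v ∈ Y ρ y := by
  intro v hv
  have h : Y ρ y ≤ (Y ρ y).comap (ρ g) := by
    refine Submodule.span_le.2 ?_
    rintro _ ⟨a, b, c, rfl⟩
    exact hg a b c
  exact h hv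

theorem Opp.n1_Y {y : V} (h : Opp ρ y) : ∀ v ∈ Y ρ y, ρ n1 v ∈ Y ρ y := by
  refine stab_Y _ fun a b c => ?_
  have e : n1 * up a b c = up 0 c b * (n1 * up a 0 0) := by
    rw [← mul_assoc, ← n1_up, mul_assoc, up_mul]
    congr 2
    all_goals ring
  rw [← rmul, e, rmul]
  by_cases ha : a = 0
  · rw [ha, up_zero, mul_one, h.s1, map_sum]
    refine Submodule.sum_mem _ fun d _ => ?_
    rw [← rmul, up_mul]
    exact up_Y _ _ _ _
  · have e2 := h.u1 (Units.mk0 a ha)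
    rw [Units.val_mk0] at e2
    rw [e2, ← rmul, up_mul]
    exact up_Y _ _ _ _

theorem Opp.n2_Y {y : V} (h : Opp ρ y) : ∀ v ∈ Y ρ y, ρ n2 v ∈ Y ρ y := by
  refine stab_Y _ fun a b c => ?_
  have e : n2 * up a b c = up (c - a * b) 0 a * (n2 * up 0 b 0) := by
    rw [← mul_assoc, ← n2_up, mul_assoc, up_mul]
    congr 2
    all_goals ring
  rw [← rmul, e, rmul]
  by_cases hb : b = 0
  · rw [hb, up_zero, mul_one, h.s2, map_sum]
    refine Submodule.sum_mem _ fun d _ => ?_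
    rw [← rmul, up_mul]
    exact up_Y _ _ _ _
  · have e2 := h.u2 (Units.mk0 b hb)
    rw [Units.val_mk0] at e2
    rw [e2, ← rmul, up_mul]
    exact up_Y _ _ _ _

theorem up_stab (y : V) (a b c : F) : ∀ v ∈ Y ρ y, ρ (up a b c) v ∈ Y ρ y := by
  refine stab_Y _ fun a' b' c' => ?_
  rw [← rmul, up_mul]
  exact up_Y _ _ _ _

/-- the stabiliser -/
def St (ρ : Representation (ZMod 2) (G3 F) V) (W : Submodule (ZMod 2) V) : Subgroup (G3 F) where
  carrier := {g | ∀ v, v ∈ W ↔ ρ g v ∈ W}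
  one_mem' := fun v => by
    rw [map_one]
    rfl
  mul_mem' := fun {a b} ha hb v => by
    rw [rmul]
    exact (hb v).trans (ha _)
  inv_mem' := fun {a} ha v => by
    have h := ha (ρ a⁻¹ v)
    rw [← rmul, mul_inv_cancel, map_one] at h
    exact h.symm

theorem mem_St {W : Submodule (ZMod 2) V} {g : G3 F} (hg : g * g = 1) (h : ∀ v ∈ W, ρ g v ∈ W) : g ∈ St ρ W := by
  intro v
  refine ⟨h v, fun hv => ?_⟩
  have h2 := h _ hv
  rw [← rmul, hg, map_one] at h2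
  exact h2

theorem Opp.inv {y : V} (h : Opp ρ y) : Inv ρ (Y ρ y) := by
  have h1 : n1 ∈ St ρ (Y ρ y) := mem_St n1_sq h.n1_Y
  have h2 : n2 ∈ St ρ (Y ρ y) := mem_St n2_sq h.n2_Y
  have h0 : (w0 : G3 F) ∈ St ρ (Y ρ y) := Subgroup.mul_mem _ (Subgroup.mul_mem _ h1 h2) h1
  have hu : ∀ a b c, up a b c ∈ St ρ (Y ρ y) := by
    intro a b c v
    refine ⟨up_stab y a b c v, fun hv => ?_⟩
    have h3 := up_stab y a b (c + a * b) _ hv
    rw [← rmul, ← up_inv, inv_mul_cancel, map_one] at h3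
    exact h3
  have ht : St ρ (Y ρ y) = ⊤ := by
    refine top_of _ (fun a b c => ?_) h1 h2
    rw [w0_lo]
    exact Subgroup.mul_mem _ (Subgroup.mul_mem _ h0 (hu _ _ _)) h0
  intro g v hv
  have hg : g ∈ St ρ (Y ρ y) := ht ▸ Subgroup.mem_top g
  exact (hg v).1 hv

theorem Y_eq [Module.Finite (ZMod 2) V] (y : V) : Y ρ y = LinearMap.range (H118.L34.Lm ρ y) := by
  classical
  let _ := Fintype.ofFinite (UU F)
  apply le_antisymm
  · refine Submodule.span_le.2 ?_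
    rintro _ ⟨a, b, c, rfl⟩
    refine ⟨Pi.single ⟨up a b c, up_mem a b c⟩ 1, ?_⟩
    rw [H118.L34.Lm_apply, Finset.sum_eq_single ⟨up a b c, up_mem a b c⟩]
    · rw [Pi.single_eq_same, one_smul]
    · intro u _ hu
      rw [Pi.single_eq_of_ne hu, zero_smul]
    · intro h
      exact absurd (Finset.mem_univ _) h
  · rintro _ ⟨f, rfl⟩
    rw [H118.L34.Lm_apply]
    refine Submodule.sum_mem _ fun u _ => Submodule.smul_mem _ _ ?_
    rw [eq_up u.2]
    exact up_Y _ _ _ _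

end Rep

section Final

variable {F : Type} [Field F] [Fintype F] {V : Type} [AddCommGroup V] [Module (ZMod 2) V] [Module.Finite (ZMod 2) V]
  {ρ : Representation (ZMod 2) (G3 F) V}

/-- **the Steinberg module has dimension 64 and contains a free `U`-generator** -/
theorem st_dim (hF : Fintype.card F = 4) {W : Submodule (ZMod 2) V} (hW : Simp ρ W) {w : V} (hw : w ∈ W) (hw0 : w ≠ 0)
    (hB : ∀ g : G3 F, g.1 1 0 = 0 → g.1 2 0 = 0 → g.1 2 1 = 0 → ρ g w = w)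
    (h1 : ∀ (n : G3 F) (x : F → G3 F), n.1 = !![0, 1, 0; 1, 0, 0; 0, 0, 1] →
      (∀ a, (x a).1 = !![1, a, 0; 0, 1, 0; 0, 0, 1]) → w + ∑ a : F, ρ (x a * n) w = 0)
    (h2 : ∀ (n : G3 F) (x : F → G3 F), n.1 = !![1, 0, 0; 0, 0, 1; 0, 1, 0] →
      (∀ a, (x a).1 = !![1, 0, 0; 0, 1, a; 0, 0, 1]) → w + ∑ a : F, ρ (x a * n) w = 0) :
    Module.finrank (ZMod 2) W = 64 ∧ ∃ w' ∈ W, Up ρ w' ≠ 0 := by
  have : CharP F 2 := by
    have : Fact (Nat.Prime 2) := ⟨Nat.prime_two⟩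
    exact charP_of_card_eq_prime_pow (f := 2) (by rw [hF]; norm_num)
  have t1 : T1 ρ w = w := by
    have h := h1 n1 (fun a => up a 0 0) rfl fun a => rfl
    rw [T1_apply]
    have h3 := two_smul_zero w
    exact (add_left_cancel (h3.trans h.symm)).symm
  have t2 : T2 ρ w = w := by
    have h := h2 n2 (fun a => up 0 a 0) rfl fun a => rfl
    rw [T2_apply]
    have h3 := two_smul_zero w
    exact (add_left_cancel (h3.trans h.symm)).symm
  have hU : Up ρ (ρ w0 w) ≠ 0 := by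
    rw [Up_w0 t1 t2]
    exact hw0
  have hyW : ρ w0 w ∈ W := hW.1 _ _ hw
  have hI : Inv ρ (Y ρ (ρ w0 w)) := (opp_w0 hB t1 t2).inv
  have hle : Y ρ (ρ w0 w) ≤ W := by
    refine Submodule.span_le.2 ?_
    rintro _ ⟨a, b, c, rfl⟩
    exact hW.1 _ _ hyW
  have hd : Module.finrank (ZMod 2) (Y ρ (ρ w0 w)) = 64 := by
    let _ := Fintype.ofFinite (UU F)
    rw [Y_eq, LinearMap.finrank_range_of_inj (LinearMap.ker_eq_bot.1 (H118.L34.Lm_inj hF hU)),
      Module.finrank_fintype_fun_eq_card, ← Nat.card_eq_fintype_card, H118.L34.card_UU hF]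
  rcases hW.2.2 _ hI hle with h | h
  · rw [h, finrank_bot] at hd
    exact absurd hd (by norm_num)
  · rw [← h]
    exact ⟨hd, _, h.symm ▸ hyW, hU⟩

end Final

end Cfsg.Agent.H906.L34
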