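import Cfsg.Agent.H204.L34.Rank

/-!
# S5917 (`L₃(4)`), type (D): quadratic maps on hermitian `3 × 3` matrices over `F₄` (helper906, after helper633)

A quadratic map on the hermitian matrices which vanishes on the nondegenerate ones is zero; hence an equivariant quadratic
map is determined by its value at the identity matrix.
-/

set_option autoImplicit false
set_option linter.unusedSectionVars false

namespace Cfsg.Agent.H906.L34

open Matrix Cfsg.Agent.H691.L34
open Cfsg.Agent.H204.L34 (hact_mul hact_one hact_HF ct_mul ct_one D canon HF_apply)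

section Quad

variable {F : Type} [Field F] {V : Type*} [AddCommGroup V] [Module (ZMod 2) V]

theorem two_zero (v : V) : v + v = 0 := by
  have h : (2 : ZMod 2) • v = 0 := by
    rw [show (2 : ZMod 2) = 0 from rfl, zero_smul]
  rwa [two_smul] at h

/-- quadratic maps on the hermitian matrices -/
structure Quad (q : M3 F → V) (b : M3 F → M3 F → V) : Prop where
  add : ∀ X Y, HF X → HF Y → q (X + Y) = q X + q Y + b X Y
  badd : ∀ X Y Z, HF X → HF Y → HF Z → b (X + Y) Z = b X Z + b Y Z

theorem HF_add (h2 : (2 : F) = 0) {X Y : M3 F} (hX : HF X) (hY : HF Y) : HF (X + Y) := by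
  ext i j
  have h1 := HF_apply hX i j
  have h3 := HF_apply hY i j
  show (X j i + Y j i) ^ 2 = X i j + Y i j
  linear_combination h1 + h3 + X j i * Y j i * h2

theorem HF_zero : HF (0 : M3 F) := by
  ext i j
  show (0 : F) ^ 2 = 0
  ring

theorem Quad.zero {q : M3 F → V} {b : M3 F → M3 F → V} (h : Quad q b) : q 0 = 0 := by
  have h1 := h.badd 0 0 0 HF_zero HF_zero HF_zero
  have h2 := h.add 0 0 HF_zero HF_zero
  rw [add_zero] at h1 h2
  have h3 : b 0 0 = 0 := by
    rw [two_zero] at h1
    exact h1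
  rw [two_zero, h3, add_zero] at h2
  exact h2

/-- the sum over an affine space of dimension three vanishes -/
theorem Quad.cube (h2 : (2 : F) = 0) {q : M3 F → V} {b : M3 F → M3 F → V} (h : Quad q b) {X A B C : M3 F} (hX : HF X)
    (hA : HF A) (hB : HF B) (hC : HF C) (e1 : q (X + A) = 0) (e2 : q (X + B) = 0) (e3 : q (X + C) = 0)
    (e4 : q (X + A + B) = 0) (e5 : q (X + A + C) = 0) (e6 : q (X + B + C) = 0) (e7 : q (X + A + B + C) = 0) :
    q X = 0 := by
  have hXA := HF_add h2 hX hA
  have hXB := HF_add h2 hX hB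
  have hXAB := HF_add h2 hXA hB
  rw [h.add _ _ hX hA] at e1
  rw [h.add _ _ hX hB] at e2
  rw [h.add _ _ hX hC] at e3
  rw [h.add _ _ hXA hB, h.add _ _ hX hA, h.badd _ _ _ hX hA hB] at e4
  rw [h.add _ _ hXA hC, h.add _ _ hX hA, h.badd _ _ _ hX hA hC] at e5
  rw [h.add _ _ hXB hC, h.add _ _ hX hB, h.badd _ _ _ hX hB hC] at e6
  rw [h.add _ _ hXAB hC, h.add _ _ hXA hB, h.add _ _ hX hA, h.badd _ _ _ hXA hB hC, h.badd _ _ _ hX hA hB,
    h.badd _ _ _ hX hA hC] at e7
  have e0 := two_zero ((4 : ℕ) • q X + (2 : ℕ) • q A + (2 : ℕ) • q B + (2 : ℕ) • q C + (2 : ℕ) • b X A + (2 : ℕ) • b X B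
    + (2 : ℕ) • b X C + b A B + b A C + b B C)
  linear_combination (norm := module) e0 - e1 - e2 - e3 - e4 - e5 - e6 - e7

/-- hermitian matrices -/
def hm (a b c x y z : F) : M3 F := !![a, x, y; x ^ 2, b, z; y ^ 2, z ^ 2, c]

theorem hm_HF (h4 : ∀ x : F, x ^ 4 = x) {a b c : F} (ha : a ^ 2 = a) (hb : b ^ 2 = b) (hc : c ^ 2 = c) (x y z : F) :
    HF (hm a b c x y z) := by
  have e : ∀ t : F, (t ^ 2) ^ 2 = t := fun t => by rw [← pow_mul]; exact h4 t
  ext i j
  fin_cases i <;> fin_cases j
  · exact ha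
  · exact e x
  · exact e y
  · rfl
  · exact hb
  · exact e z
  · rfl
  · rfl
  · exact hc

theorem hm_add (h2 : (2 : F) = 0) (a b c x y z a' b' c' x' y' z' : F) :
    hm a b c x y z + hm a' b' c' x' y' z' = hm (a + a') (b + b') (c + c') (x + x') (y + y') (z + z') := by
  have e : ∀ s t : F, s ^ 2 + t ^ 2 = (s + t) ^ 2 := fun s t => by linear_combination (-(s * t)) * h2
  ext i j
  fin_cases i <;> fin_cases j
  · rfl
  · rfl
  · rfl
  · exact e _ _
  · rfl
  · rfl
  · exact e _ _
  · exact e _ _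
  · rfl

theorem hm_det (a b c x y z : F) : (hm a b c x y z).det =
    a * b * c - a * z ^ 3 - x ^ 3 * c + x * z * y ^ 2 + y * x ^ 2 * z ^ 2 - y ^ 3 * b := by
  simp only [hm, Matrix.det_fin_three, Matrix.of_apply, Matrix.cons_val', Matrix.cons_val_zero, Matrix.cons_val_one,
    Matrix.cons_val_two]
  simp
  ring

/-- the representatives of rank one and two -/
theorem Quad.rep [Fintype F] (hF : Fintype.card F = 4) (h2 : (2 : F) = 0) (h4 : ∀ x : F, x ^ 4 = x) {q : M3 F → V}
    {b : M3 F → M3 F → V} (h : Quad q b) (h0 : ∀ X, HF X → X.det = 1 → q X = 0) (s : F) (hs : s = 0 ∨ s = 1) :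
    q (hm 1 s 0 0 0 0) = 0 := by
  have hs2 : s ^ 2 = s := by rcases hs with rfl | rfl <;> ring
  have h01 : (0 : F) ^ 2 = 0 := by ring
  have h11 : (1 : F) ^ 2 = 1 := by ring
  have o2 : (1 : F) + 1 = 0 := by rw [one_add_one_eq_two]; exact h2
  -- an element of order three
  obtain ⟨w, hw0, hw1⟩ : ∃ w : F, w ≠ 0 ∧ w ≠ 1 := by
    by_contra hcon
    push Not at hcon
    classical
    have hc : Fintype.card F ≤ ({0, 1} : Finset F).card := Finset.card_le_card fun x _ => by
      rw [Finset.mem_insert, Finset.mem_singleton]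
      by_cases hx : x = 0
      · exact Or.inl hx
      · exact Or.inr (hcon x hx)
    have := hc.trans Finset.card_le_two
    omega
  have c3 : ∀ t : F, t ≠ 0 → t ^ 3 = 1 := fun t ht => by
    have e := h4 t
    have e' : t * t ^ 3 = t * 1 := by rw [mul_one]; linear_combination e
    exact mul_left_cancel₀ ht e'
  have hw3 : 1 + w ≠ 0 := fun e => hw1 (by linear_combination e - h2)
  by_cases hs0 : s = 0
  · subst hs0
    refine h.cube h2 (A := hm 0 0 0 0 0 1) (B := hm 0 0 0 0 0 w) (C := hm 1 0 1 1 0 0) (hm_HF h4 h11 h01 h01 _ _ _)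
      (hm_HF h4 h01 h01 h01 _ _ _) (hm_HF h4 h01 h01 h01 _ _ _) (hm_HF h4 h11 h01 h11 _ _ _) ?_ ?_ ?_ ?_ ?_ ?_ ?_
    all_goals
      simp only [hm_add h2, add_zero, zero_add, o2]
      refine h0 _ (hm_HF h4 ?_ ?_ ?_ _ _ _) ?_
    any_goals exact h01
    any_goals exact h11
    all_goals
      rw [hm_det]
    · linear_combination -h2
    · linear_combination -c3 w hw0 - h2
    · linear_combination -h2
    · linear_combination -c3 _ hw3 - h2
    · linear_combination -h2
    · linear_combination -h2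
    · linear_combination -h2
  · have hs1 : s = 1 := hs.resolve_left hs0
    subst hs1
    refine h.cube h2 (A := hm 0 0 0 0 0 1) (B := hm 0 0 0 0 0 w) (C := hm 1 0 0 0 1 0) (hm_HF h4 h11 h11 h01 _ _ _)
      (hm_HF h4 h01 h01 h01 _ _ _) (hm_HF h4 h01 h01 h01 _ _ _) (hm_HF h4 h11 h01 h01 _ _ _) ?_ ?_ ?_ ?_ ?_ ?_ ?_
    all_goals
      simp only [hm_add h2, add_zero, zero_add, o2]
      refine h0 _ (hm_HF h4 ?_ ?_ ?_ _ _ _) ?_
    any_goals exact h01
    any_goals exact h11
    all_goals
      rw [hm_det]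
    · linear_combination -h2
    · linear_combination -c3 w hw0 - h2
    · linear_combination -h2
    · linear_combination -c3 _ hw3 - h2
    · linear_combination -h2
    · linear_combination -h2
    · linear_combination -h2

theorem hact_add (g : G3 F) (X Y : M3 F) : hact g (X + Y) = hact g X + hact g Y := by
  simp only [hact, Matrix.mul_add, Matrix.add_mul]

theorem two_of_card [Fintype F] (hF : Fintype.card F = 4) : (2 : F) = 0 := by
  have h := Nat.cast_card_eq_zero F
  rw [hF] at h
  have h' : (2 : F) * 2 = 0 := by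
    rw [← h]; norm_num
  exact (mul_self_eq_zero.1 h')

theorem four_of_card [Fintype F] (hF : Fintype.card F = 4) (x : F) : x ^ 4 = x := by
  rw [← hF]
  exact FiniteField.pow_card x

theorem det_ct [Fintype F] (hF : Fintype.card F = 4) (X : M3 F) : (ct X).det = X.det ^ 2 := by
  have : Fact (Nat.Prime 2) := ⟨Nat.prime_two⟩
  have : CharP F 2 := charP_of_card_eq_prime_pow (f := 2) (by rw [hF]; norm_num)
  have e : ct X = ((frobenius F 2).mapMatrix X).transpose := rfl
  rw [e, Matrix.det_transpose, ← RingHom.map_det]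
  rfl

theorem det_hact [Fintype F] (hF : Fintype.card F = 4) (g : G3 F) (X : M3 F) : (hact g X).det = X.det := by
  have e : (g : M3 F).det = 1 := g.2
  rw [hact, Matrix.det_mul, Matrix.det_mul, det_ct hF, e, one_mul, one_pow, mul_one]

/-- **a quadratic map vanishing on the nondegenerate hermitian matrices is zero** -/
theorem quad_zero [Fintype F] (hF : Fintype.card F = 4) {q : M3 F → V} {b : M3 F → M3 F → V} (h : Quad q b)
    (h0 : ∀ X, HF X → X.det = 1 → q X = 0) (X : M3 F) (hX : HF X) : q X = 0 := by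
  have h2 := two_of_card hF
  have h4 := four_of_card hF
  obtain ⟨n, hn, g, hg⟩ := canon hF h2 h4 hX
  have hk : hact g⁻¹ (D F n) = X := by rw [← hg, ← hact_mul h2, inv_mul_cancel, hact_one]
  let q' : M3 F → V := fun Y => q (hact g⁻¹ Y)
  let b' : M3 F → M3 F → V := fun Y Z => b (hact g⁻¹ Y) (hact g⁻¹ Z)
  have h' : Quad q' b' :=
    { add := fun Y Z hY hZ => by
        show q (hact g⁻¹ (Y + Z)) = _
        rw [hact_add]
        exact h.add _ _ (hact_HF h2 h4 hY _) (hact_HF h2 h4 hZ _)
      badd := fun Y Z T hY hZ hT => by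
        show b (hact g⁻¹ (Y + Z)) _ = _
        rw [hact_add]
        exact h.badd _ _ _ (hact_HF h2 h4 hY _) (hact_HF h2 h4 hZ _) (hact_HF h2 h4 hT _) }
  have h0' : ∀ Y, HF Y → Y.det = 1 → q' Y = 0 := fun Y hY hd =>
    h0 _ (hact_HF h2 h4 hY _) (by rw [det_hact hF]; exact hd)
  have key : q' (D F n) = 0 := by
    interval_cases n
    · have e : D F 0 = 0 := by
        ext i j; fin_cases i <;> fin_cases j <;> simp [D]
      rw [e]
      exact h'.zero
    · have e : D F 1 = hm 1 0 0 0 0 0 := by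
        ext i j; fin_cases i <;> fin_cases j <;> simp [D, hm]
      rw [e]
      exact h'.rep hF h2 h4 h0' 0 (Or.inl rfl)
    · have e : D F 2 = hm 1 1 0 0 0 0 := by
        ext i j; fin_cases i <;> fin_cases j <;> simp [D, hm]
      rw [e]
      exact h'.rep hF h2 h4 h0' 1 (Or.inr rfl)
    · have e : D F 3 = 1 := by
        ext i j; fin_cases i <;> fin_cases j <;> simp [D]
      rw [e]
      refine h0' _ ?_ Matrix.det_one
      exact ct_one
  rw [← hk]
  exact key

/-- the nondegenerate hermitian matrices are congruent to the identity matrix -/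
theorem exists_hact_one [Fintype F] (hF : Fintype.card F = 4) {X : M3 F} (hX : HF X) (hd : X.det = 1) :
    ∃ g : G3 F, hact g 1 = X := by
  have h2 := two_of_card hF
  have h4 := four_of_card hF
  obtain ⟨n, hn, g, hg⟩ := canon hF h2 h4 hX
  have hk : hact g⁻¹ (D F n) = X := by rw [← hg, ← hact_mul h2, inv_mul_cancel, hact_one]
  have hdn : (D F n).det = 1 := by rw [← hg, det_hact hF, hd]
  have h3 : n = 3 := by
    by_contra hne
    have hlt : n < 3 := lt_of_le_of_ne hn hne
    have h0 : (D F n).det = 0 := by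
      rw [D, Matrix.det_diagonal]
      refine Finset.prod_eq_zero (Finset.mem_univ (2 : Fin 3)) (if_neg ?_)
      show ¬ (2 < n)
      omega
    rw [h0] at hdn
    exact zero_ne_one hdn
  subst h3
  have e : D F 3 = 1 := by
    ext i j; fin_cases i <;> fin_cases j <;> simp [D]
  rw [e] at hk
  exact ⟨g⁻¹, hk⟩

theorem it_it (g : G3 F) : it (it g) = g := by
  have e : (it g)⁻¹ = it g⁻¹ := (map_inv it g).symm
  apply Subtype.ext
  show ((it g)⁻¹ : G3 F).1.transpose = g.1
  rw [e]
  show ((g⁻¹ : G3 F)⁻¹ : G3 F).1.transpose.transpose = g.1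
  rw [inv_inv, Matrix.transpose_transpose]

theorem tw_surj (s : Bool) (g : G3 F) : ∃ k : G3 F, tw s k = g := by
  cases s
  · exact ⟨g, rfl⟩
  · exact ⟨it g, it_it g⟩

end Quad

section Equi

variable {F : Type} [Field F] [Fintype F] {V : Type*} [AddCommGroup V] [Module (ZMod 2) V]
  {ρ : Representation (ZMod 2) (G3 F) V}

/-- **an equivariant quadratic map on the hermitian matrices which vanishes at the identity matrix is zero** -/
theorem quad_eq_zero (hF : Fintype.card F = 4) {q : M3 F → V} {b : M3 F → M3 F → V} (h : Quad q b) (s : Bool)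
    (e : ∀ (g : G3 F) (X : M3 F), HF X → ρ g (q X) = q (hact (tw s g) X)) (h1 : q 1 = 0) (X : M3 F) (hX : HF X) :
    q X = 0 := by
  refine quad_zero hF h (fun Y hY hd => ?_) X hX
  obtain ⟨g, rfl⟩ := exists_hact_one hF hY hd
  obtain ⟨k, rfl⟩ := tw_surj s g
  rw [← e k 1 ct_one, h1, map_zero]

/-- **two equivariant quadratic maps on the hermitian matrices which agree at the identity matrix are equal** -/
theorem quad_ext (hF : Fintype.card F = 4) {q q' : M3 F → V} {b b' : M3 F → M3 F → V} (h : Quad q b) (h' : Quad q' b')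
    (s : Bool) (e : ∀ (g : G3 F) (X : M3 F), HF X → ρ g (q X) = q (hact (tw s g) X))
    (e' : ∀ (g : G3 F) (X : M3 F), HF X → ρ g (q' X) = q' (hact (tw s g) X)) (h1 : q 1 = q' 1) (X : M3 F) (hX : HF X) :
    q X = q' X := by
  have hq : Quad (fun Y => q Y - q' Y) (fun Y Z => b Y Z - b' Y Z) :=
    { add := fun Y Z hY hZ => by
        rw [h.add Y Z hY hZ, h'.add Y Z hY hZ]
        abel
      badd := fun Y Z T hY hZ hT => by
        rw [h.badd Y Z T hY hZ hT, h'.badd Y Z T hY hZ hT]
        abel }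
  have h0 := quad_eq_zero (ρ := ρ) hF hq s (fun g Y hY => by rw [map_sub, e g Y hY, e' g Y hY]) (by rw [h1, sub_self]) X hX
  exact sub_eq_zero.1 h0

end Equi

end Cfsg.Agent.H906.L34
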